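import Cfsg.Agent.H14.EN2

/-! Set stabilisers, maximality through transpositions, derived series. -/

set_option autoImplicit false

namespace L
open H14

variable {G Ω : Type*} [Group G] [MulAction G Ω] {n : ℕ} {L : List Net} (M : PM G Ω n L)

/-- the stabiliser of a set of points -/
def sst (A : ℕ) : Subgroup G where
  carrier := {g | ∀ x, g • x ∈ M.S A ↔ x ∈ M.S A}
  one_mem' := fun x => by rw [one_smul]
  mul_mem' := fun h h' x => by rw [mul_smul, h, h']
  inv_mem' := fun h x => by rw [← h, smul_inv_smul]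

variable {M}

theorem sst_tb {A : ℕ} : ∀ g ∈ sst M A, Tb M g [(A, A)] := fun _ hg => fa_cons hg fa_nil

theorem sub_le_sst {A : ℕ} {ws : List Word}
    (h : allL (fun w => Nat.beq (runW (letN L) w A) A) ws = true) : sub M.gen ws ≤ sst M A :=
  (sub_le _).2 fun w hw x => by
    rw [← Nat.eq_of_beq_eq_true (allL_iff.1 h w hw), M.mem_S_runW, inv_smul_smul,
      Nat.eq_of_beq_eq_true (allL_iff.1 h w hw)]

variable (M) in
def CvT (K : Subgroup G) (O : ℕ) (ts : List Word) : Prop :=
  ∀ y ∈ M.S O, ∃ t ∈ ts, ∃ k ∈ K, k • ev M.gen t • M.dec 0 = y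

theorem cvt_nil {K : Subgroup G} : CvT M K 0 [] := fun y hy => absurd hy (not_mem_S_zero y)

variable {F : FK} [PtK n L F]

theorem cvt_cons {K : Subgroup G} {ts : List Word} {t : Word} {y O O' O'' : ℕ} (h1 : Orb M K [] y O)
    (h2 : CvT M K O' ts) (h3 : band (band (ltb 0 n) (Nat.beq (apK F t 0) y)) (subs O'' (Nat.lor O O')) = true) :
    CvT M K O'' (t :: ts) := fun x hx => by
  obtain ⟨h3, h4⟩ := band_iff.1 h3
  obtain ⟨h0, h3⟩ := band_iff.1 h3
  rcases (M.mem_S_lor _ _ x).1 (subs_spec h4 hx) with hx | hx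
  · obtain ⟨k, hk, e⟩ := h1 x hx
    exact ⟨t, List.mem_cons_self, k, hk.1, by rw [evK_dec M t (ltb_iff.1 h0), Nat.eq_of_beq_eq_true h3, e]⟩
  · obtain ⟨s, hs, e⟩ := h2 x hx
    exact ⟨s, List.mem_cons_of_mem _ hs, e⟩

theorem Fi.coatom [IsSimpleGroup G] {a : Word} {A₀ A : ℕ} (h : Fi M a A₀) (ha : ev M.gen a ≠ 1)
    {hs ts : List Word} {u : Word} (h1 : sub M.gen (tw a u :: hs) ≤ sst M A) (h2 : CvT M (sub M.gen hs) A [u])
    (h3 : CvT M (sub M.gen hs) (Nat.xor (full n) A) ts)
    (h4 : ∀ t ∈ ts, CvT M (sub M.gen (tw a t :: hs)) (full n) [t]) (h5 : sst M A ≠ ⊤) :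
    IsCoatom (sst M A) := by
  have hh : sub M.gen hs ≤ sst M A := le_trans ((sub_le _).2 fun w hw => ev_mem_sub _ (List.mem_cons_of_mem _ hw)) h1
  have key : ∀ {K : Subgroup G} {t : Word} {k : G}, k ∈ K →
      (tp M a (k • ev M.gen t • M.dec 0) ∈ K ↔ ev M.gen (tw a t) ∈ K) := fun {K t k} hk => by
    rw [h.tp_smul, h.tp_eq, ev_tw, K.mul_mem_cancel_right (inv_mem hk), K.mul_mem_cancel_left hk]
  refine ⟨h5, fun K hK => ?_⟩
  by_contra hT
  have hA : ∀ y, y ∈ M.S A ↔ tp M a y ∈ K := fun y => ⟨fun hy => ?_, fun hy => ?_⟩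
  · refine hK.not_ge fun k hk x => ?_
    rw [hA, hA, h.tp_smul, K.mul_mem_cancel_right (inv_mem hk), K.mul_mem_cancel_left hk]
  · obtain ⟨t, ht, k, hk, rfl⟩ := h2 y hy
    rw [List.mem_singleton.1 ht]
    exact (key (hK.le (hh hk))).2 (hK.le (h1 (ev_mem_sub _ List.mem_cons_self)))
  · by_contra hn
    obtain ⟨t, ht, k, hk, rfl⟩ := h3 y ((mem_S_xor _ _ y).2 fun e => hn (e.1 (mem_S_full y)))
    have h6 : sub M.gen (tw a t :: hs) ≤ K := (sub_le _).2 (fa_cons ((key (hK.le (hh hk))).1 hy)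
      fun w hw => hK.le (hh (ev_mem_sub _ hw)))
    have h7 : Subgroup.normalClosure {ev M.gen a} ≤ K := (Subgroup.closure_le K).2 fun g hg => by
      obtain ⟨b, hb, e⟩ := Group.mem_conjugatesOfSet_iff.1 hg
      rw [Set.mem_singleton_iff.1 hb] at e
      obtain ⟨x, rfl⟩ := h.mem_cls.1 e
      obtain ⟨s, hs, l, hl, rfl⟩ := h4 t ht x (mem_S_full x)
      rw [List.mem_singleton.1 hs]
      exact (key (h6 hl)).2 (h6 (ev_mem_sub _ List.mem_cons_self))
    rcases (Subgroup.normalClosure_normal (s := {ev M.gen a})).eq_bot_or_eq_top with e | e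
    · exact ha (Subgroup.mem_bot.1 (e ▸ Subgroup.subset_normalClosure rfl))
    · exact hT (top_le_iff.1 (e ▸ h7))

/-! ### derived series -/

noncomputable def dsR (ws : List Word) (l : List (Word × Word × Word)) : Prs :=
  List.map (fun p => (p.1, flat ws (List.append (List.append (invW p.2.2) (invW p.2.1))
    (List.append p.2.2 p.2.1)))) l

omit [MulAction G Ω] in
theorem ds_zero {gen : ℕ → G} {H : Subgroup G} {ws : List Word} (h : sub gen ws ≤ H) :
    sub gen ws ≤ (derivedSeries H 0).map H.subtype := by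
  rwa [derivedSeries_zero, ← MonoidHom.range_eq_map, Subgroup.range_subtype]

omit [MulAction G Ω] in
theorem ds_succ {gen : ℕ → G} {H : Subgroup G} {ws : List Word} {i : ℕ}
    (h : sub gen ws ≤ (derivedSeries H i).map H.subtype) {l : List (Word × Word × Word)}
    (hr : Rels gen (dsR ws l)) : sub gen (List.map Prod.fst l) ≤ (derivedSeries H (i + 1)).map H.subtype := by
  rw [derivedSeries_succ, Subgroup.map_commutator, sub_le]
  intro w hw
  obtain ⟨p, hp, rfl⟩ := List.mem_map.1 hw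
  have := hr _ (List.mem_map_of_mem hp)
  simp only [ev_flat, evA, ev_invW] at this
  rw [this]
  have := Subgroup.commutator_mem_commutator (h (ev_flat_mem gen ws p.2.1)) (h (ev_flat_mem gen ws p.2.2))
  simpa only [ev_flat, commutatorElement_def, mul_assoc] using this

omit [MulAction G Ω] in
theorem ds_ne [Group.IsSolvable G] {i : ℕ} (h : derivedSeries G i ≠ ⊥) :
    derivedSeries G (i + 1) ≠ derivedSeries G i := fun e => by
  obtain ⟨k, hk⟩ := Group.IsSolvable.solvable (G := G)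
  have : ∀ j, derivedSeries G (i + j) = derivedSeries G i := fun j => by
    induction j with
    | zero => rfl
    | succ j ih => rw [← add_assoc, derivedSeries_succ, ih, ← derivedSeries_succ, e]
  exact h (eq_bot_iff.2 (this k ▸ hk ▸ derivedSeries_antitone G (Nat.le_add_left k i)))

end L
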