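import Cfsg.Agent.H20.Pw0

/-! Product action wreath products: maximality from `H20.Pw.PW`. -/

set_option autoImplicit false
set_option linter.unusedSectionVars false

namespace H14.PwF
open Equiv Function H20.Pw

section
variable {ι U : Type} [Fintype ι] [DecidableEq ι] [Fintype U] [DecidableEq U]

variable (ι U) in
/-- the wreath product in its product action -/
def W : Subgroup (Perm (ι → U)) where
  carrier := {σ | ∃ (π : Perm ι) (τ : ι → Perm U), ∀ f i, σ f i = τ i (f (π.symm i))}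
  one_mem' := ⟨1, 1, fun _ _ => rfl⟩
  mul_mem' := by
    rintro σ σ' ⟨π, τ, h⟩ ⟨π', τ', h'⟩
    exact ⟨π * π', fun i => τ i * τ' (π.symm i), fun f i => by rw [Perm.mul_apply, h, h']; rfl⟩
  inv_mem' := by
    rintro σ ⟨π, τ, h⟩
    refine ⟨π⁻¹, fun i => (τ (π i))⁻¹, fun f i => ?_⟩
    have := h (σ⁻¹ f) (π i)
    rw [symm_apply_apply, ← Perm.mul_apply, mul_inv_cancel, Perm.one_apply] at this
    rw [Perm.eq_inv_iff_eq, ← this]; rfl

theorem co_mem (i : ι) (σ : Perm U) : co i σ ∈ W ι U :=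
  ⟨1, update 1 i σ, fun f j => by
    by_cases h : j = i
    · subst h; rw [co_same, update_self]; rfl
    · rw [co_ne h, update_of_ne h]; rfl⟩

/-- interchange of two coordinates -/
def sw (j j' : ι) : Perm (ι → U) where
  toFun f := f ∘ swap j j'
  invFun f := f ∘ swap j j'
  left_inv f := funext fun i => by simp
  right_inv f := funext fun i => by simp

theorem sw_mem (j j' : ι) : sw j j' ∈ W ι U := ⟨swap j j', 1, fun _ _ => rfl⟩

theorem card_ne (j : ι) : Fintype.card ({i // i ≠ j} → U) = Fintype.card U ^ (Fintype.card ι - 1) := by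
  rw [Fintype.card_fun, Fintype.card_subtype_compl, Fintype.card_subtype_eq]

theorem sign_co (j : ι) (σ : Perm U) :
    Perm.sign (co j σ) = Perm.sign σ ^ (Fintype.card U ^ (Fintype.card ι - 1)) := by
  have e : co j σ = (funSplitAt j U).symm.permCongr (prodCongrLeft fun _ => σ) := Equiv.ext fun f => funext fun i => by
    by_cases h : i = j
    · subst h; simp [funSplitAt, piSplitAt]
    · simp [funSplitAt, piSplitAt, co_ne h, h]
  rw [e, Perm.sign_permCongr, Perm.sign_prodCongrLeft, Finset.prod_const, Finset.card_univ, card_ne]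

theorem sign_sw {j j' : ι} (h : j ≠ j') : Perm.sign (sw j j' : Perm (ι → U)) =
    (-1) ^ ((Fintype.card U ^ Fintype.card ι - Fintype.card U ^ (Fintype.card ι - 1)) / 2) := by
  rw [Perm.sign_of_pow_two_eq_one (Equiv.ext fun f => funext fun i => by simp [sw, pow_two]), Fintype.card_fun,
    ← card_ne j]
  congr 3
  refine Fintype.card_congr ⟨fun f i => f.1 i, fun g => ⟨fun i => if hi : i = j then g ⟨j', h.symm⟩ else g ⟨i, hi⟩,
    funext fun i => ?_⟩, fun f => Subtype.ext (funext fun i => ?_), fun g => funext fun i => dif_neg i.2⟩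
  · by_cases h1 : i = j
    · subst h1; simp [sw, h.symm]
    · by_cases h2 : i = j'
      · subst h2; simp [sw, h1]
      · simp [sw, swap_apply_of_ne_of_ne h1 h2]
  · by_cases h1 : i = j
    · subst h1
      have := congrFun f.2 i
      simpa [sw] using this
    · simp [h1]

theorem not_le (h5 : 5 ≤ Fintype.card U) (h2 : 2 ≤ Fintype.card ι) : ¬ alternatingGroup (ι → U) ≤ W ι U := fun h => by
  obtain ⟨a, b, c, h1, h3, h4⟩ := Fintype.two_lt_card_iff.1 (show 2 < Fintype.card U by omega)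
  obtain ⟨i, j, hij⟩ := Fintype.one_lt_card_iff.1 (show 1 < Fintype.card ι by omega)
  have n : ∀ {x y : U}, x ≠ y → (fun _ : ι => x) ≠ fun _ => y := fun h e => h (congrFun e i)
  obtain ⟨π, τ, e⟩ := h (x := Equiv.swap (fun _ => a) (fun _ => b) * Equiv.swap (fun _ => a) fun _ => c)
    (by simp [Perm.sign_swap (n h1), Perm.sign_swap (n h3)])
  have e1 := e (fun _ => a) (π j)
  rw [Perm.mul_apply, swap_apply_left, swap_apply_of_ne_of_ne (n h3.symm) (n h4.symm)] at e1
  have e2 := e (update (fun _ => a) i b) (π j)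
  have n1 : ∀ x : U, update (fun _ : ι => a) i b ≠ fun _ => x := fun x e =>
    h1 ((by simpa [hij.symm] using congrFun e j : a = x).trans (by simpa using congrFun e i : b = x).symm)
  rw [Perm.mul_apply, swap_apply_of_ne_of_ne (n1 _) (n1 _), swap_apply_of_ne_of_ne (n1 _) (n1 _), symm_apply_apply,
    update_of_ne hij.symm, ← e1] at e2
  by_cases h : π j = i
  · rw [h, update_self] at e2; exact h4 e2
  · rw [update_of_ne h] at e2; exact h3 e2

theorem le_W (hW : PW) (h5 : 5 ≤ Fintype.card U) (h2 : 2 ≤ Fintype.card ι) {H : Subgroup (Perm (ι → U))}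
    (h1 : ∀ x ∈ W ι U, Perm.sign x = 1 → x ∈ H) (h3 : ∀ j j', ∃ τ, co j τ * sw j j' ∈ H)
    (h4 : ¬ alternatingGroup (ι → U) ≤ H) : H ≤ W ι U :=
  hW ι U H ⟨h5, fun i => Fintype.exists_ne_of_one_lt_card (by omega) i, fun i σ hσ => h1 _ (co_mem i σ)
    (by rw [sign_co, Perm.mem_alternatingGroup.1 hσ, one_pow]),
    fun j j' => let ⟨τ, h⟩ := h3 j j'; ⟨_, h, τ, fun _ => rfl⟩, h4⟩

theorem ex_even (h5 : 5 ≤ Fintype.card U) (h2 : 2 ≤ Fintype.card ι)
    (h : ¬ (Fintype.card ι = 2 ∧ Fintype.card U % 4 = 2)) (j j' : ι) :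
    ∃ τ : Perm U, Perm.sign (co j τ * sw j j') = 1 := by
  rcases Int.units_eq_one_or (Perm.sign (sw j j' : Perm (ι → U))) with h1 | h1
  · exact ⟨1, by rw [map_one, one_mul, h1]⟩
  rcases Nat.even_or_odd (Fintype.card U) with h3 | h3
  · have h4 : j ≠ j' := by
      rintro rfl
      rw [show (sw j j : Perm (ι → U)) = 1 from Equiv.ext fun f => funext fun i => by simp [sw], map_one] at h1
      exact absurd h1 (by decide)
    rw [sign_sw h4, Even.neg_one_pow] at h1
    · exact absurd h1 (by decide)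
    obtain ⟨k, hk⟩ := Nat.exists_eq_add_of_le' h2
    have h6 : 4 ∣ Fintype.card U ^ (Fintype.card ι - 1) := by
      rw [hk, show k + 2 - 1 = k + 1 from rfl]
      cases k with
      | zero => obtain ⟨t, ht⟩ := h3; rw [zero_add, pow_one]; omega
      | succ k => exact (pow_dvd_pow_of_dvd h3.two_dvd 2).trans (pow_dvd_pow _ (by omega))
    obtain ⟨t, ht⟩ := Nat.dvd_sub (h6.trans (pow_dvd_pow _ (Nat.sub_le _ 1))) h6
    exact ⟨t, by omega⟩
  · obtain ⟨a, b, h4⟩ := Fintype.one_lt_card_iff.1 (show 1 < Fintype.card U by omega)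
    exact ⟨swap a b, by rw [map_mul, sign_co, Perm.sign_swap h4, h3.pow.neg_one_pow, h1]; rfl⟩

theorem alt (hW : PW) (h5 : 5 ≤ Fintype.card U) (h2 : 2 ≤ Fintype.card ι)
    (h : ¬ (Fintype.card ι = 2 ∧ Fintype.card U % 4 = 2)) :
    IsCoatom ((W ι U).subgroupOf (alternatingGroup (ι → U))) := by
  refine ⟨fun e => not_le h5 h2 (Subgroup.subgroupOf_eq_top.1 e), fun K hK => by_contra fun hn => hK.not_ge ?_⟩
  have h1 : ∀ x ∈ W ι U, Perm.sign x = 1 → x ∈ K.map (alternatingGroup (ι → U)).subtype := fun x a b =>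
    ⟨⟨x, b⟩, hK.le a, rfl⟩
  exact fun x hx => le_W hW h5 h2 h1 (fun j j' => let ⟨τ, hτ⟩ := ex_even h5 h2 h j j'
    ⟨τ, h1 _ (mul_mem (co_mem j τ) (sw_mem j j')) hτ⟩) (fun e => hn (eq_top_iff.2 fun y _ => by
      obtain ⟨z, hz, e⟩ := e y.2
      rwa [← Subtype.ext e])) ⟨x, hx, rfl⟩

theorem sym (hW : PW) (h5 : 5 ≤ Fintype.card U) (h2 : 2 ≤ Fintype.card ι) {σ : Perm (ι → U)}
    (h : Perm.sign σ = -1) (hσ : σ ∈ W ι U) : IsCoatom (W ι U) := by
  refine ⟨fun e => not_le h5 h2 (e ▸ le_top), fun K hK => by_contra fun hn => hK.not_ge ?_⟩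
  refine le_W hW h5 h2 (fun x a _ => hK.le a) (fun j j' => ⟨1, hK.le (mul_mem (co_mem j 1) (sw_mem j j'))⟩)
    fun e => hn (eq_top_iff.2 fun y _ => ?_)
  rcases Int.units_eq_one_or (Perm.sign y) with h1 | h1
  · exact e h1
  · exact (mul_mem_cancel_right (hK.le hσ)).1 (e (show Perm.sign (y * σ) = 1 by rw [map_mul, h, h1]; rfl))

end

theorem final (hW : PW) (m k : ℕ) (hm : 5 ≤ m) (hk : 2 ≤ k) :
    (¬ (k = 2 ∧ m % 4 = 2) → ∃ M : Subgroup ↥(alternatingGroup (Fin k → Fin m)), IsCoatom M ∧ ∀ σ : ↥(alternatingGroup (Fin k → Fin m)), σ ∈ M ↔ ∃ (π : Equiv.Perm (Fin k)) (τ : Fin k → Equiv.Perm (Fin m)), ∀ (f : Fin k → Fin m) (i : Fin k), (σ : Equiv.Perm (Fin k → Fin m)) f i = τ i (f (π.symm i))) ∧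
    ((∃ σ : Equiv.Perm (Fin k → Fin m), Equiv.Perm.sign σ = -1 ∧ ∃ (π : Equiv.Perm (Fin k)) (τ : Fin k → Equiv.Perm (Fin m)), ∀ (f : Fin k → Fin m) (i : Fin k), σ f i = τ i (f (π.symm i))) →
      ∃ M : Subgroup (Equiv.Perm (Fin k → Fin m)), IsCoatom M ∧ ∀ σ, σ ∈ M ↔ ∃ (π : Equiv.Perm (Fin k)) (τ : Fin k → Equiv.Perm (Fin m)), ∀ (f : Fin k → Fin m) (i : Fin k), σ f i = τ i (f (π.symm i))) :=
  ⟨fun h => ⟨_, alt hW (by simpa) (by simpa) (by simpa only [Fintype.card_fin] using h), fun _ => Iff.rfl⟩,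
    fun ⟨_, h, h'⟩ => ⟨_, sym hW (by simpa) (by simpa) h h', fun _ => Iff.rfl⟩⟩

end H14.PwF
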